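import Cfsg.Agent.H282.SK.Def
import Cfsg.Agent.LThreeMB.Quo
import Cfsg.Agent.H877.SK.Tool

/-!
# S3010 (Sidki pairs), row `B`: an element of order 5 conjugate to its square (helper272)

`n x n⁻¹ = x ^ 2`, `x` of order 5, the squares of the automorphisms of `C(x) / ⟨x⟩` are inner: an involution `s` inverts `x`
and acts trivially on `C(x) / ⟨x⟩`, and `C(s) ∩ C(x) ≅ C(x) / ⟨x⟩` by the natural map.
-/

set_option autoImplicit false

open Subgroup Cfsg

namespace Cfsg.Agent.H272.SK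

open Cfsg.Agent.LThreeMB (XX Zx mk exists_mk mk_eq_mk mk_mul)
open Cfsg.Agent.H877.SK (comm_conj inv_conj autC autX autX_mk)

universe u v

section split

variable {G : Type u} [Group G]

/-- the conclusion of the splitting -/
structure Spl (s x : G) : Prop where
  sq : s * s = 1
  ne : s ≠ 1
  inv : s * x * s⁻¹ = x⁻¹
  act : ∀ d : G, d * x = x * d → ∃ i : ℤ, s * d * s⁻¹ = d * x ^ i
  iso : ∃ f : ↥(centralizer ({s} : Set G) ⊓ centralizer ({x} : Set G)) ≃* XX x,
    ∀ d, f d = mk x (mem_centralizer_singleton_iff.1 (mem_inf.1 d.2).2)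

/-- **A real element of odd order inducing an inner automorphism of the quotient.** (proof of `H877.SK.exists_split`) -/
theorem exists_split {x n : G} (hx : Odd (orderOf x)) (hx1 : x ≠ 1) (hn : n * x * n⁻¹ = x⁻¹)
    (hin : ∃ y : XX x, autX hn = MulAut.conj y) (hcen : center (XX x) = ⊥) : ∃ s : G, Spl s x := by
  obtain ⟨y, hy⟩ := hin
  obtain ⟨c, hc, rfl⟩ := exists_mk y
  set s := c⁻¹ * n with hs
  have hcx : c⁻¹ * x⁻¹ * c = x⁻¹ := by
    have h1 : Commute c x⁻¹ := (show Commute c x from hc).inv_right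
    rw [mul_assoc, ← h1.eq]
    group
  have hsx : s * x * s⁻¹ = x⁻¹ := by
    calc s * x * s⁻¹ = c⁻¹ * (n * x * n⁻¹) * c := by rw [hs]; group
      _ = x⁻¹ := by rw [hn, hcx]
  -- `s` acts trivially on `C(x) / ⟨x⟩`
  have hact : ∀ d : G, d * x = x * d → ∃ i : ℤ, s * d * s⁻¹ = d * x ^ i := by
    intro d hd
    have h1 := congrArg (fun α : MulAut (XX x) => α (mk x hd)) hy
    simp only [MulAut.conj_apply] at h1
    rw [autX_mk hn hd] at h1
    have h2 : mk x hc * mk x hd * (mk x hc)⁻¹ = mk x (LThreeMB.conj_comm hc hd) := rfl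
    rw [h2] at h1
    obtain ⟨i, hi⟩ := (mk_eq_mk _ _).1 h1.symm
    refine ⟨i, ?_⟩
    have h3 : Commute c (x ^ i) := (show Commute c x from hc).zpow_right i
    calc s * d * s⁻¹ = c⁻¹ * (n * d * n⁻¹) * c := by rw [hs]; group
      _ = c⁻¹ * (c * d * c⁻¹ * x ^ i) * c := by rw [hi]
      _ = d * c⁻¹ * (x ^ i * c) := by group
      _ = d * c⁻¹ * (c * x ^ i) := by rw [h3.eq]
      _ = d * x ^ i := by group
  have hinvpow : ∀ i : ℤ, s * x ^ i * s⁻¹ = x ^ (-i) := by
    intro i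
    rw [← conj_zpow, hsx, inv_zpow, zpow_neg]
  have hodd : ∀ i : ℤ, x ^ i = x ^ (-i) → x ^ i = 1 := by
    intro i hi
    have h1 : x ^ (2 * i) = 1 := by
      rw [two_mul, zpow_add]
      nth_rewrite 1 [hi]
      rw [← zpow_add, neg_add_cancel, zpow_zero]
    rw [← orderOf_dvd_iff_zpow_eq_one] at h1 ⊢
    have h2 : IsCoprime (orderOf x : ℤ) 2 := by
      rw [Int.isCoprime_iff_gcd_eq_one]
      have := (Nat.coprime_two_right (n := orderOf x)).2 hx
      exact this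
    exact h2.dvd_of_dvd_mul_left h1
  -- `s² ∈ ⟨x⟩`
  have hssx : (s * s) * x = x * (s * s) := by
    have h1 : s * s * x * (s * s)⁻¹ = x := by
      calc s * s * x * (s * s)⁻¹ = s * (s * x * s⁻¹) * s⁻¹ := by group
        _ = s * x ^ (-1 : ℤ) * s⁻¹ := by rw [hsx, zpow_neg_one]
        _ = x := by rw [hinvpow, neg_neg, zpow_one]
    rwa [mul_inv_eq_iff_eq_mul] at h1
  have hss : mk x hssx ∈ center (XX x) := by
    rw [mem_center_iff]
    intro g
    obtain ⟨d, hd, rfl⟩ := exists_mk g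
    obtain ⟨i, hi⟩ := hact d hd
    have h1 : (s * s) * d * (s * s)⁻¹ = d := by
      calc (s * s) * d * (s * s)⁻¹ = s * (s * d * s⁻¹) * s⁻¹ := by group
        _ = s * (d * x ^ i) * s⁻¹ := by rw [hi]
        _ = (s * d * s⁻¹) * (s * x ^ i * s⁻¹) := by group
        _ = d * x ^ i * x ^ (-i) := by rw [hi, hinvpow]
        _ = d := by rw [mul_assoc, ← zpow_add, add_neg_cancel, zpow_zero, mul_one]
    have h2 : (s * s) * d = d * (s * s) := by rwa [mul_inv_eq_iff_eq_mul] at h1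
    have h3 : d * (s * s) * x = x * (d * (s * s)) := by rw [mul_assoc, hssx, ← mul_assoc, hd, mul_assoc]
    have h4 : (s * s) * d * x = x * ((s * s) * d) := by rw [h2]; exact h3
    rw [mk_mul hd hssx h3, mk_mul hssx hd h4]
    exact LThreeMB.mk_congr _ _ h2.symm
  rw [hcen, mem_bot, LThreeMB.mk_eq_one] at hss
  obtain ⟨i, hi⟩ := hss
  have hs2 : s * s = 1 := by
    rw [← hi]
    apply hodd
    rw [← hinvpow, hi]
    group
  have hs1 : s ≠ 1 := by
    intro h1
    rw [h1, one_mul, inv_one, mul_one] at hsx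
    apply hx1
    have := hodd 1 (by rw [zpow_one, zpow_neg_one]; exact hsx)
    rwa [zpow_one] at this
  refine ⟨s, hs2, hs1, hsx, hact, ?_⟩
  -- the isomorphism
  let f : ↥(centralizer ({s} : Set G) ⊓ centralizer ({x} : Set G)) →* XX x :=
    (QuotientGroup.mk' (Zx x)).comp (Subgroup.inclusion inf_le_right)
  have hf : ∀ d, f d = mk x (mem_centralizer_singleton_iff.1 (mem_inf.1 d.2).2) := fun d => rfl
  refine ⟨MulEquiv.ofBijective f ⟨?_, ?_⟩, hf⟩
  · rw [injective_iff_map_eq_one]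
    intro d hd
    rw [hf, LThreeMB.mk_eq_one] at hd
    obtain ⟨j, hj⟩ := hd
    have h1 : (d : G) * s = s * d := mem_centralizer_singleton_iff.1 (mem_inf.1 d.2).1
    apply Subtype.ext
    show (d : G) = 1
    rw [← hj]
    apply hodd
    rw [← hinvpow, hj, ← h1]
    group
  · intro g
    obtain ⟨d, hd, rfl⟩ := exists_mk g
    obtain ⟨i, hi⟩ := hact d hd
    obtain ⟨m, hm⟩ := hx
    -- `x ^ (2 j) = x ^ i`
    obtain ⟨j, hj⟩ : ∃ j : ℤ, x ^ i = x ^ (j + j) := by
      refine ⟨i * (m + 1), ?_⟩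
      have h1 : i * ((m : ℤ) + 1) + i * (m + 1) = i + i * (orderOf x) := by
        rw [hm]; push_cast; ring
      rw [h1, zpow_add, mul_comm i, zpow_mul, zpow_natCast, pow_orderOf_eq_one, one_zpow, mul_one]
    have hdj : (d * x ^ j) * x = x * (d * x ^ j) := by
      rw [mul_assoc, ← zpow_add_one, add_comm, zpow_one_add, ← mul_assoc, hd, mul_assoc]
    have hds : (d * x ^ j) * s = s * (d * x ^ j) := by
      have h1 : s * (d * x ^ j) * s⁻¹ = d * x ^ j := by
        calc s * (d * x ^ j) * s⁻¹ = (s * d * s⁻¹) * (s * x ^ j * s⁻¹) := by group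
          _ = d * x ^ (j + j) * x ^ (-j) := by rw [hi, hinvpow, hj]
          _ = d * x ^ j := by rw [mul_assoc, ← zpow_add]; congr 2; ring
      rw [mul_inv_eq_iff_eq_mul] at h1
      exact h1.symm
    refine ⟨⟨d * x ^ j, mem_inf.2 ⟨mem_centralizer_singleton_iff.2 hds, mem_centralizer_singleton_iff.2 hdj⟩⟩, ?_⟩
    rw [hf]
    exact ((mk_eq_mk hd hdj).2 ⟨j, rfl⟩).symm

/-! ### An element conjugate to its square -/

section five

variable {x n : G}

theorem comm_conj_two (hx : x ^ 5 = 1) (hn : n * x * n⁻¹ = x ^ 2) {c : G} (hc : c * x = x * c) :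
    (n * c * n⁻¹) * x = x * (n * c * n⁻¹) := by
  have h1 : x = n * x ^ 3 * n⁻¹ := by
    rw [← conj_pow, hn, ← pow_mul]
    calc x = x ^ 5 * x := by rw [hx, one_mul]
      _ = x ^ (2 * 3) := by rw [← pow_succ]
  have h2 : c * x ^ 3 = x ^ 3 * c := ((show Commute c x from hc).pow_right 3).eq
  calc (n * c * n⁻¹) * x = (n * c * n⁻¹) * (n * x ^ 3 * n⁻¹) := by rw [← h1]
    _ = n * (c * x ^ 3) * n⁻¹ := by group
    _ = n * (x ^ 3 * c) * n⁻¹ := by rw [h2]
    _ = (n * x ^ 3 * n⁻¹) * (n * c * n⁻¹) := by group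
    _ = x * (n * c * n⁻¹) := by rw [← h1]

theorem comm_conj_two' (hn : n * x * n⁻¹ = x ^ 2) {c : G} (hc : c * x = x * c) :
    (n⁻¹ * c * n⁻¹⁻¹) * x = x * (n⁻¹ * c * n⁻¹⁻¹) := by
  have h1 : x = n⁻¹ * x ^ 2 * n := by rw [← hn]; group
  have h2 : c * x ^ 2 = x ^ 2 * c := ((show Commute c x from hc).pow_right 2).eq
  rw [inv_inv]
  calc (n⁻¹ * c * n) * x = (n⁻¹ * c * n) * (n⁻¹ * x ^ 2 * n) := by rw [← h1]
    _ = n⁻¹ * (c * x ^ 2) * n := by group
    _ = n⁻¹ * (x ^ 2 * c) * n := by rw [h2]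
    _ = (n⁻¹ * x ^ 2 * n) * (n⁻¹ * c * n) := by group
    _ = x * (n⁻¹ * c * n) := by rw [← h1]

/-- conjugation by `n` on `C(x)` -/
def autD (hx : x ^ 5 = 1) (hn : n * x * n⁻¹ = x ^ 2) :
    ↥(centralizer ({x} : Set G)) ≃* ↥(centralizer ({x} : Set G)) where
  toFun c := ⟨n * c * n⁻¹, mem_centralizer_singleton_iff.2 (comm_conj_two hx hn (mem_centralizer_singleton_iff.1 c.2))⟩
  invFun c := ⟨n⁻¹ * c * n⁻¹⁻¹, mem_centralizer_singleton_iff.2
    (comm_conj_two' hn (mem_centralizer_singleton_iff.1 c.2))⟩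
  left_inv c := Subtype.ext (by show n⁻¹ * (n * (c : G) * n⁻¹) * n⁻¹⁻¹ = c; group)
  right_inv c := Subtype.ext (by show n * (n⁻¹ * (c : G) * n⁻¹⁻¹) * n⁻¹ = c; group)
  map_mul' a b := Subtype.ext (by
    show n * ((a : G) * b) * n⁻¹ = n * a * n⁻¹ * (n * b * n⁻¹)
    group)

/-- conjugation by `n` on `C(x) / ⟨x⟩` -/
noncomputable def autY (hx : x ^ 5 = 1) (hn : n * x * n⁻¹ = x ^ 2) : MulAut (XX x) :=
  QuotientGroup.congr (Zx x) (Zx x) (autD hx hn) (by
    have h1 : (autD hx hn : ↥(centralizer ({x} : Set G)) →* ↥(centralizer ({x} : Set G))) (LThreeMB.self x) =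
        (LThreeMB.self x) ^ 2 := Subtype.ext hn
    rw [Zx, MonoidHom.map_zpowers, h1]
    apply le_antisymm
    · rw [zpowers_le]
      exact pow_mem (mem_zpowers _) 2
    · rw [zpowers_le]
      refine ⟨3, ?_⟩
      apply Subtype.ext
      show (x ^ 2) ^ (3 : ℤ) = x
      rw [show (3 : ℤ) = ((3 : ℕ) : ℤ) from rfl, zpow_natCast, ← pow_mul]
      calc x ^ (2 * 3) = x ^ 5 * x := by rw [← pow_succ]
        _ = x := by rw [hx, one_mul])

theorem autY_mk (hx : x ^ 5 = 1) (hn : n * x * n⁻¹ = x ^ 2) {c : G} (hc : c * x = x * c) :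
    autY hx hn (mk x hc) = mk x (comm_conj_two hx hn hc) := rfl

theorem sq_inv (hx : x ^ 5 = 1) (hn : n * x * n⁻¹ = x ^ 2) : (n * n) * x * (n * n)⁻¹ = x⁻¹ := by
  calc (n * n) * x * (n * n)⁻¹ = n * (n * x * n⁻¹) * n⁻¹ := by group
    _ = n * x ^ 2 * n⁻¹ := by rw [hn]
    _ = (n * x * n⁻¹) ^ 2 := by rw [conj_pow]
    _ = x ^ 4 := by rw [hn, ← pow_mul]
    _ = x⁻¹ := by rw [eq_inv_iff_mul_eq_one, ← pow_succ, hx]

theorem autX_eq (hx : x ^ 5 = 1) (hn : n * x * n⁻¹ = x ^ 2) :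
    autX (sq_inv hx hn) = autY hx hn * autY hx hn := by
  ext u
  obtain ⟨c, hc, rfl⟩ := exists_mk u
  rw [autX_mk, MulAut.mul_apply, autY_mk, autY_mk hx hn (comm_conj_two hx hn hc)]
  apply LThreeMB.mk_congr
  group

end five

/-- **The splitting of `C(x)`.** -/
theorem exists_five {x n : G} (hx : orderOf x = 5) (hn : n * x * n⁻¹ = x ^ 2)
    (hin : ∀ α : MulAut (XX x), ∃ y : XX x, α * α = MulAut.conj y) (hcen : center (XX x) = ⊥) : ∃ s : G, Spl s x := by
  have hx5 : x ^ 5 = 1 := by rw [← hx, pow_orderOf_eq_one]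
  obtain ⟨y, hy⟩ := hin (autY hx5 hn)
  exact exists_split (by rw [hx]; decide) (by rintro rfl; rw [orderOf_one] at hx; norm_num at hx) (sq_inv hx5 hn)
    ⟨y, (autX_eq hx5 hn).trans hy⟩ hcen

/-- transfer of `the squares of the automorphisms are inner` -/
theorem sq_inner_congr {X : Type u} {Y : Type v} [Group X] [Group Y] (e : X ≃* Y)
    (h : ∀ α : MulAut Y, ∃ g : Y, α * α = MulAut.conj g) (α : MulAut X) : ∃ g : X, α * α = MulAut.conj g := by
  obtain ⟨g, hg⟩ := h (e.symm.trans (α.trans e))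
  refine ⟨e.symm g, ?_⟩
  ext x
  have h1 := congrArg (fun β : MulAut Y => β (e x)) hg
  rw [MulAut.conj_apply]
  apply e.injective
  rw [map_mul, map_mul, map_inv, e.apply_symm_apply]
  have h2 : e (α (e.symm (e (α (e.symm (e x)))))) = g * e x * g⁻¹ := h1
  rw [e.symm_apply_apply, e.symm_apply_apply] at h2
  exact h2

/-- index at most 2 -/
theorem sq_inner_of_index {X : Type u} [Group X] (h : (MulAut.conj : X →* MulAut X).range.index = 1 ∨
    (MulAut.conj : X →* MulAut X).range.index = 2) (α : MulAut X) : ∃ g : X, α * α = MulAut.conj g := by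
  have h1 : α * α ∈ (MulAut.conj : X →* MulAut X).range := by
    rcases h with h | h
    · rw [index_eq_one] at h
      rw [h]
      exact mem_top _
    · exact mul_self_mem_of_index_two h α
  obtain ⟨g, hg⟩ := h1
  exact ⟨g, hg.symm⟩

end split

end Cfsg.Agent.H272.SK
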