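import Cfsg.Agent.CTwoTab.HN
import Cfsg.Agent.HN.StepFive
import Cfsg.Agent.KFacts.HN.Sheet
import Cfsg.Agent.R01.Lifts
import Cfsg.Agent.H272.SK.Split

/-!
# S3010 (Sidki pairs), row `B`: the centralizer of an involution of `HN` modulo the involution (helper272)

* `core_H0` : a normal 2-subgroup of `H0 = 2.HS.2` is contained in `⟨τ⟩`;
* `core_bot` : the abstract computation of `O_2(C(q u) ∩ C(q x))`.
-/

set_option autoImplicit false

open Subgroup Cfsg

namespace Cfsg.Agent.H272.SK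

universe u v w

section hn

open Cfsg.Agent.HN Cfsg.Agent.HN.Pres Cfsg.Agent.HN.HS100 Cfsg.Agent.HN.H0Basic

/-- a normal 2-subgroup of `2.HS.2` -/
theorem core_H0 {R : Subgroup H0} (hR : R.Normal) (h2 : IsPGroup 2 R) : ∀ r ∈ R, r = 1 ∨ r = τ := by
  have hKn : K.Normal := K_normal
  have hfin : Finite H0 := H0Basic.finite_H0
  have hqs := CTwoTab.HN.qs_K
  have hcases := Lib.ComponentSolvable.quasisimple_normal_cases hqs (N := R.subgroupOf K) inferInstance
  have hle : R.subgroupOf K ≤ center K := by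
    rcases hcases with h | h
    · exfalso
      have h3 : K ≤ R := subgroupOf_eq_top.1 h
      have h4 : IsPGroup 2 K := h2.to_le h3
      obtain ⟨k, hk⟩ := IsPGroup.iff_card.1 h4
      rw [CTwoTab.HN.card_K] at hk
      have h11 : 11 ∣ 2 ^ k := by rw [← hk]; norm_num
      exact absurd (Nat.Prime.dvd_of_dvd_pow (by norm_num) h11) (by norm_num)
    · exact h
  have h3 : ⁅⁅R, K⁆, K⁆ = ⊥ := by
    rw [eq_bot_iff, commutator_le]
    intro a ha b hb
    have haR : a ∈ R := commutator_le_left R K ha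
    have haK : a ∈ K := commutator_le_right R K ha
    have h4 : (⟨a, haK⟩ : K) ∈ center K := hle haR
    have h5 : b * a = a * b := congrArg Subtype.val (mem_center_iff.1 h4 ⟨b, hb⟩)
    rw [mem_bot, commutatorElement_eq_one_iff_mul_comm]
    exact h5.symm
  have h4 := Lib.ComponentSolvable.commutator_eq_bot_of_perfect hqs.1 h3
  intro r hr
  apply StepFive.eq_of_comm_K
  intro k hk
  have h5 : r * k * r⁻¹ * k⁻¹ ∈ (⊥ : Subgroup H0) := h4 ▸ commutator_mem_commutator hr hk
  rw [mem_bot, mul_inv_eq_one, mul_inv_eq_iff_eq_mul] at h5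
  exact h5

theorem center_hn : center Cfsg.Spor.HN = ⊥ := by
  have hs : IsSimpleGroup Cfsg.Spor.HN := Cfsg.Agent.S1701.result.1
  rcases hs.eq_bot_or_eq_top_of_normal (center Cfsg.Spor.HN) inferInstance with h | h
  · exact h
  · exfalso
    let _ : CommGroup Cfsg.Spor.HN := { (inferInstance : Group Cfsg.Spor.HN) with
      mul_comm := fun a b => (Subgroup.mem_center_iff.1 (h ▸ Subgroup.mem_top a) b).symm }
    have : Finite Cfsg.Spor.HN := KFacts.HN.finite_HN
    have h2 := IsSimpleGroup.prime_card (α := Cfsg.Spor.HN)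
    rw [Cfsg.Agent.S1701.result.2] at h2
    norm_num at h2

theorem sq_inner (α : MulAut Cfsg.Spor.HN) : ∃ g, α * α = MulAut.conj g := sq_inner_of_index KFacts.HN.out_index α

end hn

/-! ### The abstract computation -/

section abstr

open Cfsg.Agent.R01.Lifts Cfsg.Agent.H282.SK

variable {G : Type u} {B : Type v} {H : Type w} [Group G] [Group B] [Group H]

/-- **`O_2(C(q u) ∩ C(q x)) = 1`.** -/
theorem core_bot [Finite B] {t : G} {q : ↥(centralizer ({t} : Set G)) →* B} {tb : ↥(centralizer ({t} : Set G))}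
    (hq : Ext q tb) (htb : (tb : G) = t) {u x : ↥(centralizer ({t} : Set G))} (hx5 : orderOf x = 5)
    (hact : ∀ d : G, d * (x : G) = x * d → ∃ i : ℤ, (u : G) * d * (u : G)⁻¹ = d * (x : G) ^ i)
    (θ : H →* G) (hinj : Function.Injective θ) {τ : H} (hτ : θ τ = t)
    (hu : ∀ h, θ h * u = u * θ h) (hx : ∀ h, θ h * x = x * θ h) (ht : ∀ h, θ h * t = t * θ h)
    (hsurj : ∀ g : G, g * u = u * g → g * x = x * g → g * t = t * g → ∃ h, θ h = g)
    (hcore : ∀ R : Subgroup H, R.Normal → IsPGroup 2 R → ∀ r ∈ R, r = 1 ∨ r = τ) :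
    O2 (centralizer ({q u} : Set B) ⊓ centralizer ({q x} : Set B)) = ⊥ := by
  have htt : t * t = 1 := by rw [← htb]; exact congrArg Subtype.val hq.zz
  have ht1 : t ≠ 1 := fun h => hq.zne (Subtype.ext (by rw [htb, h]; rfl))
  have hker : ∀ c : ↥(centralizer ({t} : Set G)), q c = 1 ↔ (c : G) = 1 ∨ (c : G) = t := by
    intro c
    rw [hq.ker]
    constructor
    · rintro (h | h)
      · left; rw [h]; rfl
      · right; rw [h, htb]
    · rintro (h | h)
      · left; exact Subtype.ext h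
      · right; exact Subtype.ext (by rw [h, htb])
  have hx1 : (x : G) ^ 5 = 1 := by rw [← hx5, ← Subgroup.orderOf_coe, pow_orderOf_eq_one]
  have ht5 : t ^ 5 = t := by
    rw [pow_succ, show 4 = 2 * 2 from rfl, pow_mul, pow_two t, htt, one_pow, one_mul]
  let φ : H →* B := q.comp (θ.codRestrict (centralizer ({t} : Set G)) fun h => mem_centralizer_singleton_iff.2 (ht h))
  have hφ : ∀ h, φ h = q ⟨θ h, mem_centralizer_singleton_iff.2 (ht h)⟩ := fun h => rfl
  set C := centralizer ({q u} : Set B) ⊓ centralizer ({q x} : Set B) with hC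
  have hφC : ∀ h, φ h ∈ C := by
    intro h
    refine mem_inf.2 ⟨mem_centralizer_singleton_iff.2 ?_, mem_centralizer_singleton_iff.2 ?_⟩
    · rw [hφ, ← map_mul, ← map_mul]
      exact congrArg q (Subtype.ext (hu h))
    · rw [hφ, ← map_mul, ← map_mul]
      exact congrArg q (Subtype.ext (hx h))
  have hsur : ∀ b ∈ C, ∃ h, φ h = b := by
    intro b hb
    obtain ⟨g, rfl⟩ := hq.surj b
    have hgt : (g : G) * t = t * g := mem_centralizer_singleton_iff.1 g.2
    have hxt : (x : G) * t = t * x := mem_centralizer_singleton_iff.1 x.2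
    have h1 := mem_centralizer_singleton_iff.1 (mem_inf.1 hb).1
    have h2 := mem_centralizer_singleton_iff.1 (mem_inf.1 hb).2
    have hgx : (g : G) * x = x * g := by
      have h3 : q (g * x * g⁻¹ * x⁻¹) = 1 := by
        rw [map_mul, map_mul, map_mul, map_inv, map_inv, h2]; group
      rcases (hker _).1 h3 with h4 | h4
      · have h5 : (g : G) * x * (g : G)⁻¹ * (x : G)⁻¹ = 1 := h4
        rwa [mul_inv_eq_one, mul_inv_eq_iff_eq_mul] at h5
      · exfalso
        have h5 : (g : G) * x * (g : G)⁻¹ * (x : G)⁻¹ = t := h4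
        rw [mul_inv_eq_iff_eq_mul] at h5
        have h6 : ((g : G) * x * (g : G)⁻¹) ^ 5 = 1 := by rw [conj_pow, hx1, mul_one, mul_inv_cancel]
        rw [h5, (show Commute t (x : G) from hxt.symm).mul_pow, hx1, mul_one, ht5] at h6
        exact ht1 h6
    have hgu : (g : G) * u = u * g := by
      have h3 : q (u * g * u⁻¹ * g⁻¹) = 1 := by
        rw [map_mul, map_mul, map_mul, map_inv, map_inv, ← h1]; group
      obtain ⟨i, hi⟩ := hact g hgx
      rcases (hker _).1 h3 with h4 | h4
      · have h5 : (u : G) * g * (u : G)⁻¹ * (g : G)⁻¹ = 1 := h4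
        rw [mul_inv_eq_one, mul_inv_eq_iff_eq_mul] at h5
        exact h5.symm
      · exfalso
        have h5 : (u : G) * g * (u : G)⁻¹ * (g : G)⁻¹ = t := h4
        rw [mul_inv_eq_iff_eq_mul, ← hgt, hi, mul_right_inj] at h5
        have h6 : ((x : G) ^ i) ^ 5 = 1 := by
          rw [← zpow_natCast, ← zpow_mul, mul_comm, zpow_mul, zpow_natCast, hx1, one_zpow]
        rw [h5, ht5] at h6
        exact ht1 h6
    obtain ⟨h, hh⟩ := hsurj g hgu hgx hgt
    exact ⟨h, by rw [hφ]; exact congrArg q (Subtype.ext hh)⟩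
  -- the preimage of the core
  let R : Subgroup H := (O2 C).comap φ
  have hRn : R.Normal := ⟨by
    intro r hr h
    show φ (h * r * h⁻¹) ∈ O2 C
    rw [map_mul, map_mul, map_inv]
    exact conj_mem_O2 (hφC h) hr⟩
  have hR2 : IsPGroup 2 R := by
    rintro ⟨r, hr⟩
    obtain ⟨k, hk⟩ := isPGroup_O2 C ⟨φ r, hr⟩
    have hk' : φ r ^ 2 ^ k = 1 := congrArg Subtype.val hk
    refine ⟨k + 1, Subtype.ext ?_⟩
    show r ^ 2 ^ (k + 1) = 1
    rw [← map_pow, hφ, hker] at hk'
    have h3 : θ (r ^ 2 ^ k) = 1 ∨ θ (r ^ 2 ^ k) = t := hk'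
    rw [pow_succ, pow_mul]
    apply hinj
    rw [map_pow, map_one]
    rcases h3 with h3 | h3
    · rw [h3, one_pow]
    · rw [h3, pow_two, htt]
  rw [eq_bot_iff]
  intro b hb
  obtain ⟨h, rfl⟩ := hsur b (O2_le C hb)
  rw [mem_bot, hφ, hker]
  show θ h = 1 ∨ θ h = t
  rcases hcore R hRn hR2 h hb with h1 | h1
  · left; rw [h1, map_one]
  · right; rw [h1, hτ]

end abstr

end Cfsg.Agent.H272.SK
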